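-- helper63 library: definitions for S4415 (a solvable 3'-group `R = [R, b]` acting on a module
-- over `ZMod 3`, with a four-group permuted by `b`); add-only once landed.
import Mathlib

set_option autoImplicit false

namespace Cfsg.Agent.Helper63.N15

/-- The abstract configuration: `G = R⟨b⟩` acts faithfully and irreducibly on `V` over `𝔽₃`,
`R` is a normal solvable `3'`-subgroup with `R = [R, b]`, `b ^ 3 = 1`, and `{1, q₁, q₂, q₃}` is a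
four-group in `R` whose involutions are permuted cyclically by `b`; `v₁, v₂, v₃` span the three
nontrivial weight lines of the four-group (permuted by `b`), and `b` fixes the common fixed points
of the four-group. -/
structure Cfg {G : Type*} [Group G] {V : Type*} [AddCommGroup V] [Module (ZMod 3) V]
    (ρ : Representation (ZMod 3) G V) (R : Subgroup G) (b q₁ q₂ q₃ : G) (v₁ v₂ v₃ : V) :
    Prop where
  faith : ∀ g : G, (∀ v : V, ρ g v = v) → g = 1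
  irr : ∀ N : Submodule (ZMod 3) V, (∀ g : G, ∀ v ∈ N, ρ g v ∈ N) → N = ⊥ ∨ N = ⊤
  Rn : R.Normal
  R3 : (Nat.card R).Coprime 3
  sol : Group.IsSolvable ↥R
  b3 : b ^ 3 = 1
  gen : R ⊔ Subgroup.zpowers b = ⊤
  comm : ⁅R, Subgroup.zpowers b⁆ = R
  q1R : q₁ ∈ R
  q2R : q₂ ∈ R
  q3R : q₃ ∈ R
  q11 : q₁ * q₁ = 1
  q22 : q₂ * q₂ = 1
  q33 : q₃ * q₃ = 1
  q12 : q₁ * q₂ = q₃
  q21 : q₂ * q₁ = q₃
  bq1 : b * q₁ * b⁻¹ = q₂
  bq2 : b * q₂ * b⁻¹ = q₃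
  bq3 : b * q₃ * b⁻¹ = q₁
  v1 : v₁ ≠ 0
  bv1 : ρ b v₁ = v₂
  bv2 : ρ b v₂ = v₃
  bv3 : ρ b v₃ = v₁
  s11 : ρ q₁ v₁ = v₁
  s12 : ρ q₁ v₂ = -v₂
  s13 : ρ q₁ v₃ = -v₃
  s21 : ρ q₂ v₁ = -v₁
  s22 : ρ q₂ v₂ = v₂
  s23 : ρ q₂ v₃ = -v₃
  s31 : ρ q₃ v₁ = -v₁
  s32 : ρ q₃ v₂ = -v₂
  s33 : ρ q₃ v₃ = v₃
  dec : ∀ v : V, ∃ u : V, ∃ c₁ c₂ c₃ : ZMod 3, v = u + c₁ • v₁ + c₂ • v₂ + c₃ • v₃ ∧
    ρ q₁ u = u ∧ ρ q₂ u = u ∧ ρ q₃ u = u ∧ ρ b u = u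

/-- The configuration is symmetric under the cyclic rotation of the indices. -/
theorem Cfg.rot {G : Type*} [Group G] {V : Type*} [AddCommGroup V] [Module (ZMod 3) V]
    {ρ : Representation (ZMod 3) G V} {R : Subgroup G} {b q₁ q₂ q₃ : G} {v₁ v₂ v₃ : V}
    (c : Cfg ρ R b q₁ q₂ q₃ v₁ v₂ v₃) : Cfg ρ R b q₂ q₃ q₁ v₂ v₃ v₁ where
  faith := c.faith
  irr := c.irr
  Rn := c.Rn
  R3 := c.R3
  sol := c.sol
  b3 := c.b3
  gen := c.gen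
  comm := c.comm
  q1R := c.q2R
  q2R := c.q3R
  q3R := c.q1R
  q11 := c.q22
  q22 := c.q33
  q33 := c.q11
  q12 := by
    have h := c.q21
    have h2 := c.q22
    calc q₂ * q₃ = q₂ * (q₂ * q₁) := by rw [h]
      _ = (q₂ * q₂) * q₁ := by rw [mul_assoc]
      _ = q₁ := by rw [h2, one_mul]
  q21 := by
    have h := c.q12
    have h2 := c.q22
    calc q₃ * q₂ = (q₁ * q₂) * q₂ := by rw [h]
      _ = q₁ * (q₂ * q₂) := by rw [mul_assoc]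
      _ = q₁ := by rw [h2, mul_one]
  bq1 := c.bq2
  bq2 := c.bq3
  bq3 := c.bq1
  v1 := by
    intro h
    have h1 := c.bv1
    have h2 := c.bv2
    have h3 := c.bv3
    rw [h] at h2
    rw [map_zero] at h2
    rw [← h2, map_zero] at h3
    exact c.v1 h3.symm
  bv1 := c.bv2
  bv2 := c.bv3
  bv3 := c.bv1
  s11 := c.s22
  s12 := c.s23
  s13 := c.s21
  s21 := c.s32
  s22 := c.s33
  s23 := c.s31
  s31 := c.s12
  s32 := c.s13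
  s33 := c.s11
  dec := by
    intro v
    obtain ⟨u, c₁, c₂, c₃, h, h1, h2, h3, h4⟩ := c.dec v
    exact ⟨u, c₂, c₃, c₁, by rw [h]; abel, h2, h3, h1, h4⟩

/-- `x` is trivial or acts as `-1`. -/
def IsZ {G : Type*} [Group G] {V : Type*} [AddCommGroup V] [Module (ZMod 3) V]
    (ρ : Representation (ZMod 3) G V) (x : G) : Prop :=
  x = 1 ∨ ∀ v : V, ρ x v = -v

/-- The largest normal `2`-subgroup of `G` contained in `R`. -/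
def T2 {G : Type*} [Group G] (R : Subgroup G) : Subgroup G :=
  sSup {N : Subgroup G | N.Normal ∧ N ≤ R ∧ IsPGroup 2 N}

/-- Elementwise form of "elementary abelian of order `4`". -/
def IsV4 {G : Type*} [Group G] (R : Subgroup G) : Prop :=
  (∀ x ∈ R, ∀ y ∈ R, x * y = y * x) ∧ (∀ x ∈ R, x ^ 2 = 1) ∧ Nat.card R = 4

/-- Elementwise form of "extraspecial of order `32` containing an elementary abelian subgroup of
order `8`". -/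
def IsES32 {G : Type*} [Group G] (R : Subgroup G) : Prop :=
  Nat.card R = 32 ∧
  (∃ z ∈ R, z ≠ 1 ∧ z ^ 2 = 1 ∧ (∀ x ∈ R, x * z = z * x) ∧
    (∀ x ∈ R, (∀ y ∈ R, x * y = y * x) → x = 1 ∨ x = z) ∧
    (∀ x ∈ R, x ^ 2 = 1 ∨ x ^ 2 = z) ∧
    (∀ x ∈ R, ∀ y ∈ R, x * y = y * x ∨ x * y = z * (y * x))) ∧
  ∃ A : Subgroup G, A ≤ R ∧ (∀ a ∈ A, ∀ a' ∈ A, a * a' = a' * a) ∧ (∀ a ∈ A, a ^ 2 = 1) ∧
    Nat.card A = 8

/-- `G` acts monomially (signed permutations) on the basis `e`, transitively on the lines, and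
`b` is a `3`-cycle `e i₁ ↦ e i₂ ↦ e i₃ ↦ e i₁` fixing all the other basis vectors. -/
def MonoN {G : Type*} [Group G] {V : Type*} [AddCommGroup V] [Module (ZMod 3) V]
    (ρ : Representation (ZMod 3) G V) (b : G) (n : ℕ) (e : Module.Basis (Fin n) (ZMod 3) V) :
    Prop :=
  (∀ g : G, ∀ i : Fin n, ∃ j : Fin n, ρ g (e i) = e j ∨ ρ g (e i) = -e j) ∧
  (∀ i j : Fin n, ∃ g : G, ρ g (e i) = e j ∨ ρ g (e i) = -e j) ∧
  ∃ i₁ i₂ i₃ : Fin n, i₁ ≠ i₂ ∧ i₂ ≠ i₃ ∧ i₁ ≠ i₃ ∧ ρ b (e i₁) = e i₂ ∧ ρ b (e i₂) = e i₃ ∧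
    ρ b (e i₃) = e i₁ ∧ ∀ i : Fin n, i ≠ i₁ → i ≠ i₂ → i ≠ i₃ → ρ b (e i) = e i

/-- `e₁, e₂, e₃` is a basis of `V` on which `G` acts by signed permutations, `b` cyclically. -/
def Mono3 {G : Type*} [Group G] {V : Type*} [AddCommGroup V] [Module (ZMod 3) V]
    (ρ : Representation (ZMod 3) G V) (b : G) (e₁ e₂ e₃ : V) : Prop :=
  (∀ v : V, ∃ c₁ c₂ c₃ : ZMod 3, v = c₁ • e₁ + c₂ • e₂ + c₃ • e₃) ∧
  (∀ c₁ c₂ c₃ : ZMod 3, c₁ • e₁ + c₂ • e₂ + c₃ • e₃ = 0 → c₁ = 0 ∧ c₂ = 0 ∧ c₃ = 0) ∧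
  (∀ g : G, ∀ e ∈ ({e₁, e₂, e₃} : Set V), ∃ e' ∈ ({e₁, e₂, e₃} : Set V),
    ρ g e = e' ∨ ρ g e = -e') ∧
  ρ b e₁ = e₂ ∧ ρ b e₂ = e₃ ∧ ρ b e₃ = e₁

/-- `e₁, e₂, e₃, e₄` is a basis of `V` on which `G` acts by signed permutations, transitively on
the four lines, `b` permuting `e₁, e₂, e₃` cyclically and fixing `e₄`. -/
def Mono4 {G : Type*} [Group G] {V : Type*} [AddCommGroup V] [Module (ZMod 3) V]
    (ρ : Representation (ZMod 3) G V) (b : G) (e₁ e₂ e₃ e₄ : V) : Prop :=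
  (∀ v : V, ∃ c₁ c₂ c₃ c₄ : ZMod 3, v = c₁ • e₁ + c₂ • e₂ + c₃ • e₃ + c₄ • e₄) ∧
  (∀ c₁ c₂ c₃ c₄ : ZMod 3, c₁ • e₁ + c₂ • e₂ + c₃ • e₃ + c₄ • e₄ = 0 →
    c₁ = 0 ∧ c₂ = 0 ∧ c₃ = 0 ∧ c₄ = 0) ∧
  (∀ g : G, ∀ e ∈ ({e₁, e₂, e₃, e₄} : Set V), ∃ e' ∈ ({e₁, e₂, e₃, e₄} : Set V),
    ρ g e = e' ∨ ρ g e = -e') ∧
  (∀ e ∈ ({e₁, e₂, e₃, e₄} : Set V), ∃ g : G, ρ g e₄ = e ∨ ρ g e₄ = -e) ∧
  ρ b e₁ = e₂ ∧ ρ b e₂ = e₃ ∧ ρ b e₃ = e₁ ∧ ρ b e₄ = e₄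

/-- `W i` (`i < m`) are the nonzero weight spaces of the subgroup `A` (of exponent `2`) on `V`,
with characters `χ i` (values `±1` on `A`); `V` is their direct sum and `G` permutes them. -/
def IsWeightDec {G : Type*} [Group G] {V : Type*} [AddCommGroup V] [Module (ZMod 3) V]
    (ρ : Representation (ZMod 3) G V) (A : Subgroup G) (m : ℕ)
    (W : Fin m → Submodule (ZMod 3) V) (χ : Fin m → G → ZMod 3) : Prop :=
  (∀ i, W i ≠ ⊥) ∧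
  (∀ i, ∀ v : V, v ∈ W i ↔ ∀ a ∈ A, ρ a v = χ i a • v) ∧
  (∀ i j, i ≠ j → ∃ a ∈ A, χ i a ≠ χ j a) ∧
  (∀ i, ∀ a ∈ A, χ i a = 1 ∨ χ i a = -1) ∧
  (∀ v : V, ∃ f : Fin m → V, (∀ i, f i ∈ W i) ∧ v = ∑ i, f i) ∧
  (∀ f : Fin m → V, (∀ i, f i ∈ W i) → ∑ i, f i = 0 → ∀ i, f i = 0) ∧
  (∀ g : G, ∀ i, ∃ j, ∀ v ∈ W i, ρ g v ∈ W j)

/-- Consequences of `det (ρ g) = 1` for a `g` that is diagonal, or a double transposition, on
the frame `e₁, e₂, e₃, e₄`. -/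
def Det4 {G : Type*} [Group G] {V : Type*} [AddCommGroup V] [Module (ZMod 3) V]
    (ρ : Representation (ZMod 3) G V) (g : G) (e₁ e₂ e₃ e₄ : V) : Prop :=
  (∀ ε₁ ε₂ ε₃ ε₄ : ZMod 3, ρ g e₁ = ε₁ • e₁ → ρ g e₂ = ε₂ • e₂ → ρ g e₃ = ε₃ • e₃ →
    ρ g e₄ = ε₄ • e₄ → ε₁ * ε₂ * ε₃ * ε₄ = 1) ∧
  (∀ α β γ δ : ZMod 3, ρ g e₁ = α • e₂ → ρ g e₂ = β • e₁ → ρ g e₃ = γ • e₄ →
    ρ g e₄ = δ • e₃ → α * β * γ * δ = 1) ∧
  (∀ α β γ δ : ZMod 3, ρ g e₁ = α • e₃ → ρ g e₃ = β • e₁ → ρ g e₂ = γ • e₄ →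
    ρ g e₄ = δ • e₂ → α * β * γ * δ = 1) ∧
  (∀ α β γ δ : ZMod 3, ρ g e₁ = α • e₄ → ρ g e₄ = β • e₁ → ρ g e₂ = γ • e₃ →
    ρ g e₃ = δ • e₂ → α * β * γ * δ = 1)

/-- Case (C): every normal subgroup of exponent `2` inside `R` is centralized by `b`. -/
def HC {G : Type*} [Group G] (R : Subgroup G) (b : G) : Prop :=
  ∀ A : Subgroup G, A.Normal → A ≤ R → (∀ x ∈ A, x ^ 2 = 1) → ∀ x ∈ A, x * b = b * x

/-- `T` is "extraspecial modulo `Z`": squares and commutators of `T` lie in `Z`, and the centre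
of `T` lies in `Z`. -/
def ZProps {G : Type*} [Group G] {V : Type*} [AddCommGroup V] [Module (ZMod 3) V]
    (ρ : Representation (ZMod 3) G V) (T : Subgroup G) : Prop :=
  (∀ t ∈ T, IsZ ρ (t * t)) ∧ (∀ s ∈ T, ∀ t ∈ T, IsZ ρ (s * t * s⁻¹ * t⁻¹)) ∧
    (∀ t ∈ T, (∀ s ∈ T, t * s = s * t) → IsZ ρ t)

/-- `T` is the largest normal `2`-subgroup of `G` contained in `R`. -/
def TProps {G : Type*} [Group G] (R T : Subgroup G) : Prop :=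
  T.Normal ∧ T ≤ R ∧ IsPGroup 2 T ∧
    ∀ N : Subgroup G, N.Normal → N ≤ R → IsPGroup 2 N → N ≤ T

/-- Automorphisms of an extraspecial-type `2`-group that are trivial modulo the centre are
inner (stated for conjugation by an element `g` of an ambient group). -/
def PairStmt (G : Type*) [Group G] : Prop :=
  ∀ (T : Subgroup G) (z : G), z ∈ T → z * z = 1 → (∀ t ∈ T, z * t = t * z) →
    (∀ t ∈ T, t * t = 1 ∨ t * t = z) →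
    (∀ s ∈ T, ∀ t ∈ T, s * t * s⁻¹ * t⁻¹ = 1 ∨ s * t * s⁻¹ * t⁻¹ = z) →
    (∀ t ∈ T, (∀ s ∈ T, t * s = s * t) → t = 1 ∨ t = z) →
    ∀ g : G, (∀ t ∈ T, g * t * g⁻¹ * t⁻¹ = 1 ∨ g * t * g⁻¹ * t⁻¹ = z) →
      ∃ t₀ ∈ T, ∀ t ∈ T, (t₀⁻¹ * g) * t = t * (t₀⁻¹ * g)

/-- A normal subgroup `N > K` of a normal `2`-subgroup `T` contains an element outside `K`
that is central of order `2` modulo `K`. -/
def PcenStmt (G : Type*) [Group G] : Prop :=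
  ∀ T N K : Subgroup G, IsPGroup 2 T → T.Normal → N.Normal → N ≤ T → K.Normal → K < N →
    ∃ x ∈ N, x ∉ K ∧ x * x ∈ K ∧ ∀ t ∈ T, x * t * x⁻¹ * t⁻¹ ∈ K

/-- Chief factors of `G` inside `R` are elementary abelian. -/
def MinnStmt {G : Type*} [Group G] (R : Subgroup G) : Prop :=
  ∀ N K : Subgroup G, N.Normal → N ≤ R → K.Normal → K < N →
    ∃ M : Subgroup G, M.Normal ∧ K < M ∧ M ≤ N ∧ ∃ r : ℕ, r.Prime ∧ (∀ x ∈ M, x ^ r ∈ K) ∧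
      (∀ x ∈ M, ∀ y ∈ M, x * y * x⁻¹ * y⁻¹ ∈ K)

/-- Restriction of a representation to a subgroup and an invariant submodule. -/
def resRep {S : Type*} [Group S] {E : Type*} [AddCommGroup E] [Module (ZMod 3) E]
    (ρ : Representation (ZMod 3) S E) (H : Subgroup S) (F : Submodule (ZMod 3) E)
    (hF : ∀ h ∈ H, ∀ v ∈ F, ρ h v ∈ F) : Representation (ZMod 3) ↥H ↥F where
  toFun h := (ρ (h : S)).restrict (fun v hv => hF h h.2 v hv)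
  map_one' := by
    ext v
    simp
  map_mul' := by
    intro x y
    ext v
    simp

theorem resRep_apply {S : Type*} [Group S] {E : Type*} [AddCommGroup E] [Module (ZMod 3) E]
    (ρ : Representation (ZMod 3) S E) (H : Subgroup S) (F : Submodule (ZMod 3) E)
    (hF : ∀ h ∈ H, ∀ v ∈ F, ρ h v ∈ F) (h : ↥H) (v : ↥F) :
    ((resRep ρ H F hF h v : ↥F) : E) = ρ (h : S) (v : E) := rfl

end Cfsg.Agent.Helper63.N15
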