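-- helper63 library: definitions for S4414 (hyperplane projections of an elementary abelian
-- normal subgroup acting on a module over `ZMod 2`); add-only once landed.
import Mathlib

set_option autoImplicit false

namespace Cfsg.Agent.Helper63.N14

variable {S : Type*} [Group S] {E : Type*} [AddCommGroup E] [Module (ZMod 2) E]

/-- The conjugate `s K s⁻¹` of a subgroup. -/
def cj (s : S) (K : Subgroup S) : Subgroup S := K.map (MulAut.conj s).toMonoidHom

/-- `K` is a subgroup of index `p` of `A`. -/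
def IsHyp (A : Subgroup S) (p : ℕ) (K : Subgroup S) : Prop :=
  K ≤ A ∧ Nat.card K * p = Nat.card A

/-- The operator `∑_{k ∈ K} ρ k`. -/
noncomputable def eK (ρ : Representation (ZMod 2) S E) (K : Subgroup S) :
    Module.End (ZMod 2) E :=
  ∑ᶠ k : ↥K, ρ (k : S)

open Classical in
/-- `eK ρ K` for the subgroups `K` of index `p` of `A`, and `0` for the other subgroups. -/
noncomputable def eH (ρ : Representation (ZMod 2) S E) (A : Subgroup S) (p : ℕ)
    (K : Subgroup S) : Module.End (ZMod 2) E :=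
  if IsHyp A p K then eK ρ K else 0

theorem mem_cj {s : S} {K : Subgroup S} {x : S} : x ∈ cj s K ↔ ∃ k ∈ K, s * k * s⁻¹ = x := by
  unfold cj
  rw [Subgroup.mem_map]
  rfl

theorem cj_one (K : Subgroup S) : cj (1 : S) K = K := by
  ext x
  rw [mem_cj]
  constructor
  · rintro ⟨k, hk, rfl⟩
    simpa using hk
  · intro hx
    exact ⟨x, hx, by simp⟩

theorem cj_mul (s t : S) (K : Subgroup S) : cj (s * t) K = cj s (cj t K) := by
  ext x
  rw [mem_cj, mem_cj]
  constructor
  · rintro ⟨k, hk, rfl⟩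
    exact ⟨t * k * t⁻¹, mem_cj.mpr ⟨k, hk, rfl⟩, by group⟩
  · rintro ⟨y, hy, rfl⟩
    obtain ⟨k, hk, rfl⟩ := mem_cj.mp hy
    exact ⟨k, hk, by group⟩

/-- In a finite group, `t K t⁻¹ ⊆ K` implies `t⁻¹ K t ⊆ K`. -/
theorem conj_inv_mem [Finite S] (K : Subgroup S) (t : S) (h : ∀ k ∈ K, t * k * t⁻¹ ∈ K) :
    ∀ k ∈ K, t⁻¹ * k * t ∈ K := by
  intro k hk
  have hinj : Function.Injective (fun x : ↥K => (⟨t * x.1 * t⁻¹, h x.1 x.2⟩ : ↥K)) := by
    intro x y hxy
    have h1 : t * x.1 * t⁻¹ = t * y.1 * t⁻¹ := congrArg Subtype.val hxy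
    apply Subtype.ext
    simpa using h1
  obtain ⟨x, hx⟩ := (Finite.injective_iff_surjective.mp hinj) ⟨k, hk⟩
  have h1 : t * x.1 * t⁻¹ = k := congrArg Subtype.val hx
  have h2 : t⁻¹ * k * t = x.1 := by rw [← h1]; group
  rw [h2]
  exact x.2

end Cfsg.Agent.Helper63.N14
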