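-- helper63: piece D1 of CALL S4414 (fixed vectors of a Frobenius complement).
import Cfsg.Agent.Helper63.N14Defs

set_option autoImplicit false

namespace Cfsg.Agent.Helper63.N14

/-- D1. From the identity `∑_{a ∈ A} ∑_{i < q} ρ (a g^i a⁻¹) = 1`: `g` fixes a nonzero vector
of every nonzero `A⟨g⟩`-invariant subspace. -/
theorem frob_fixed {S : Type*} [Group S] [Finite S] {E : Type*} [AddCommGroup E]
    [Module (ZMod 2) E] (ρ : Representation (ZMod 2) S E) (A : Subgroup S) (hAN : A.Normal)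
    (hAodd : Odd (Nat.card A)) (hfixA : ∀ v : E, (∀ a ∈ A, ρ a v = v) → v = 0)
    (g : S) (q : ℕ) (hq : q.Prime) (hgq : g ^ q = 1)
    (hcent : ∀ i : ℕ, 0 < i → i < q → ∀ a ∈ A, g ^ i * a = a * g ^ i → a = 1)
    (W : Submodule (ZMod 2) E) (hWA : ∀ a ∈ A, ∀ w ∈ W, ρ a w ∈ W) (hWg : ∀ w ∈ W, ρ g w ∈ W)
    (hW : W ≠ ⊥) :
    ∃ w ∈ W, w ≠ 0 ∧ ρ g w = w := by
  classical
  haveI : Fintype ↥A := Fintype.ofFinite _
  have hmul : ∀ (a b : S) (w : E), ρ (a * b) w = ρ a (ρ b w) := fun a b w => by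
    rw [map_mul]; rfl
  have hone : ∀ w : E, ρ 1 w = w := fun w => by rw [map_one]; rfl
  have h2u : ∀ w : E, w + w = 0 := by
    intro w
    have h1 : (2 : ZMod 2) = 0 := rfl
    rw [← two_smul (ZMod 2) w, h1, zero_smul]
  have hsumA : ∀ w : E, ∑ b : ↥A, ρ (b : S) w = 0 := by
    intro w
    apply hfixA
    intro a ha
    rw [map_sum]
    exact Fintype.sum_equiv (Equiv.mulLeft (⟨a, ha⟩ : ↥A)) _ _ (fun b => by rw [← hmul]; rfl)
  have hterm : ∀ i : ℕ, 0 < i → i < q → ∀ w : E,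
      ∑ a : ↥A, ρ ((a : S) * g ^ i * (a : S)⁻¹) w = 0 := by
    intro i hi0 hiq w
    have hinj : Function.Injective (fun a : ↥A =>
        (⟨a.1 * (g ^ i * a.1⁻¹ * (g ^ i)⁻¹),
          A.mul_mem a.2 (hAN.conj_mem _ (A.inv_mem a.2) _)⟩ : ↥A)) := by
      intro a b h
      have h1 : a.1 * (g ^ i * a.1⁻¹ * (g ^ i)⁻¹) = b.1 * (g ^ i * b.1⁻¹ * (g ^ i)⁻¹) :=
        congrArg Subtype.val h
      have h3 : a.1 * g ^ i * a.1⁻¹ = b.1 * g ^ i * b.1⁻¹ := by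
        calc a.1 * g ^ i * a.1⁻¹ = a.1 * (g ^ i * a.1⁻¹ * (g ^ i)⁻¹) * g ^ i := by group
          _ = b.1 * (g ^ i * b.1⁻¹ * (g ^ i)⁻¹) * g ^ i := by rw [h1]
          _ = b.1 * g ^ i * b.1⁻¹ := by group
      have h2 : g ^ i * (b.1⁻¹ * a.1) = (b.1⁻¹ * a.1) * g ^ i := by
        calc g ^ i * (b.1⁻¹ * a.1) = b.1⁻¹ * (b.1 * g ^ i * b.1⁻¹) * a.1 := by group
          _ = b.1⁻¹ * (a.1 * g ^ i * a.1⁻¹) * a.1 := by rw [h3]
          _ = (b.1⁻¹ * a.1) * g ^ i := by group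
      have h4 := hcent i hi0 hiq (b.1⁻¹ * a.1) (A.mul_mem (A.inv_mem b.2) a.2) h2
      apply Subtype.ext
      calc a.1 = b.1 * (b.1⁻¹ * a.1) := by group
        _ = b.1 := by rw [h4, mul_one]
    have hbij := Finite.injective_iff_bijective.mp hinj
    have h5 : ∀ a : ↥A, ρ ((a : S) * g ^ i * (a : S)⁻¹) w =
        ρ (a.1 * (g ^ i * a.1⁻¹ * (g ^ i)⁻¹)) (ρ (g ^ i) w) := by
      intro a
      rw [← hmul]
      have h6 : (a : S) * g ^ i * (a : S)⁻¹ = a.1 * (g ^ i * a.1⁻¹ * (g ^ i)⁻¹) * g ^ i := by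
        group
      rw [h6]
    rw [Finset.sum_congr rfl (fun a _ => h5 a), ← hsumA (ρ (g ^ i) w)]
    exact Fintype.sum_bijective _ hbij _ _ (fun a => rfl)
  obtain ⟨w, hwW, hw0⟩ := (Submodule.ne_bot_iff W).mp hW
  have hident : ∑ a : ↥A, ∑ i ∈ Finset.range q, ρ ((a : S) * g ^ i * (a : S)⁻¹) w = w := by
    rw [Finset.sum_comm]
    rw [Finset.sum_eq_single_of_mem 0 (Finset.mem_range.mpr hq.pos)]
    · simp only [pow_zero, mul_one, mul_inv_cancel, hone]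
      rw [Finset.sum_const, Finset.card_univ, ← Nat.card_eq_fintype_card]
      obtain ⟨m, hm⟩ := hAodd
      rw [hm, add_smul, one_smul, mul_smul, two_smul, h2u, zero_add]
    · intro i hi hi0
      exact hterm i (Nat.pos_of_ne_zero hi0) (Finset.mem_range.mp hi) w
  have hex : ∃ a : ↥A, ∑ i ∈ Finset.range q, ρ (g ^ i) (ρ (a : S)⁻¹ w) ≠ 0 := by
    by_contra hcon
    push Not at hcon
    apply hw0
    rw [← hident]
    apply Finset.sum_eq_zero
    intro a _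
    have h6 : ∑ i ∈ Finset.range q, ρ ((a : S) * g ^ i * (a : S)⁻¹) w =
        ρ (a : S) (∑ i ∈ Finset.range q, ρ (g ^ i) (ρ (a : S)⁻¹ w)) := by
      rw [map_sum]
      exact Finset.sum_congr rfl (fun i _ => by rw [hmul, hmul])
    rw [h6, hcon a, map_zero]
  obtain ⟨a, ha⟩ := hex
  refine ⟨∑ i ∈ Finset.range q, ρ (g ^ i) (ρ (a : S)⁻¹ w), ?_, ha, ?_⟩
  · apply W.sum_mem
    intro i _
    have h7 : ∀ (n : ℕ) (w' : E), w' ∈ W → ρ (g ^ n) w' ∈ W := by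
      intro n
      induction n with
      | zero => intro w' hw'; rw [pow_zero, hone]; exact hw'
      | succ n ih => intro w' hw'; rw [pow_succ, hmul]; exact ih _ (hWg w' hw')
    exact h7 i _ (hWA _ (A.inv_mem a.2) w hwW)
  · rw [map_sum]
    have h8 : ∑ i ∈ Finset.range q, ρ g (ρ (g ^ i) (ρ (a : S)⁻¹ w)) =
        ∑ i ∈ Finset.range q, ρ (g ^ (i + 1)) (ρ (a : S)⁻¹ w) :=
      Finset.sum_congr rfl (fun i _ => by rw [pow_succ', hmul])
    rw [h8]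
    have h2' := Finset.sum_range_succ (fun i => ρ (g ^ i) (ρ (a : S)⁻¹ w)) q
    have h3' := Finset.sum_range_succ' (fun i => ρ (g ^ i) (ρ (a : S)⁻¹ w)) q
    rw [h2'] at h3'
    simp only [hgq, pow_zero] at h3'
    exact (add_right_cancel h3').symm

end Cfsg.Agent.Helper63.N14
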