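-- helper63: piece D3b of CALL S4414 (eight fixed vectors in the core subspace).
import Cfsg.Agent.Helper63.N14Defs

set_option autoImplicit false

namespace Cfsg.Agent.Helper63.N14

/-- D3b. Eight vectors of `W` fixed by `N_{S₂}(K)`. -/
theorem core_count {S : Type*} [Group S] [Finite S] {E : Type*} [AddCommGroup E]
    [Module (ZMod 2) E] [Finite E] (ρ : Representation (ZMod 2) S E) (q : ℕ)
    (hq : q.Prime) (hq2 : q ≠ 2)
    (A : Subgroup S) (hAN : A.Normal) (hAab : ∀ a ∈ A, ∀ b ∈ A, a * b = b * a)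
    (hfixA : ∀ v : E, (∀ a ∈ A, ρ a v = v) → v = 0)
    (S₂ Sq : Subgroup S) (h2 : IsPGroup 2 S₂) (hSq : Nat.card Sq = q)
    (hcent : ∀ g ∈ Sq, g ≠ 1 → ∀ a ∈ A, g * a = a * g → a = 1)
    (K : Subgroup S)
    (W : Submodule (ZMod 2) E) (hW : W ≠ ⊥) (hWK : ∀ w ∈ W, ∀ k ∈ K, ρ k w = w)
    (hWA : ∀ a ∈ A, ∀ w ∈ W, ρ a w ∈ W) (hWq : ∀ x ∈ Sq, ∀ w ∈ W, ρ x w ∈ W)
    (hWt : ∀ t ∈ S₂, (∀ k ∈ K, t * k * t⁻¹ ∈ K) → ∀ w ∈ W, ρ t w ∈ W)
    (hWc : ∀ x ∈ Sq, ∀ t ∈ S₂, (∀ k ∈ K, t * k * t⁻¹ ∈ K) → ∀ w ∈ W,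
      ρ x (ρ t w) = ρ t (ρ x w))
    (h2fix : ∀ P' : Subgroup S, IsPGroup 2 P' → ∀ W' : Submodule (ZMod 2) E,
      (∀ s ∈ P', ∀ w ∈ W', ρ s w ∈ W') → W' ≠ ⊥ → ∃ w ∈ W', w ≠ 0 ∧ ∀ s ∈ P', ρ s w = w)
    (hfrob : ∀ g ∈ Sq, g ≠ 1 → ∀ W' : Submodule (ZMod 2) E, (∀ a ∈ A, ∀ w ∈ W', ρ a w ∈ W') →
      (∀ w ∈ W', ρ g w ∈ W') → W' ≠ ⊥ → ∃ w ∈ W', w ≠ 0 ∧ ρ g w = w) :
    8 ≤ Nat.card {w : E // (∀ k ∈ K, ρ k w = w) ∧
      ∀ t ∈ S₂, (∀ k ∈ K, t * k * t⁻¹ ∈ K) → ρ t w = w} := by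
  classical
  have hmul : ∀ (a b : S) (w : E), ρ (a * b) w = ρ a (ρ b w) := fun a b w => by
    rw [map_mul]; rfl
  have hone : ∀ w : E, ρ 1 w = w := fun w => by rw [map_one]; rfl
  have h2u : ∀ w : E, w + w = 0 := by
    intro w
    have h1 : (2 : ZMod 2) = 0 := rfl
    rw [← two_smul (ZMod 2) w, h1, zero_smul]
  have hchar : ∀ x y : E, x + y = 0 → x = y := by
    intro x y h
    calc x = (x + y) + y := by rw [add_assoc, h2u, add_zero]
      _ = y := by rw [h, zero_add]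
  -- the normalizer of `K` in `S₂`
  let T : Subgroup S :=
    { carrier := {t | t ∈ S₂ ∧ ∀ k ∈ K, t * k * t⁻¹ ∈ K}
      one_mem' := ⟨S₂.one_mem, fun k hk => by simpa using hk⟩
      mul_mem' := by
        rintro a b ⟨ha, ha'⟩ ⟨hb, hb'⟩
        refine ⟨S₂.mul_mem ha hb, fun k hk => ?_⟩
        have h1 : a * b * k * (a * b)⁻¹ = a * (b * k * b⁻¹) * a⁻¹ := by group
        rw [h1]; exact ha' _ (hb' k hk)
      inv_mem' := by
        rintro a ⟨ha, ha'⟩
        refine ⟨S₂.inv_mem ha, fun k hk => ?_⟩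
        have h1 := conj_inv_mem K a ha' k hk
        simpa using h1 }
  have hT2 : IsPGroup 2 T := h2.to_le (fun t ht => ht.1)
  -- a generator of `S_q`
  obtain ⟨g, hg, hg1⟩ : ∃ g ∈ Sq, g ≠ 1 := by
    have h1 : Nontrivial ↥Sq := by
      rw [← Finite.one_lt_card_iff_nontrivial, hSq]; exact hq.one_lt
    obtain ⟨x, hx⟩ := exists_ne (1 : ↥Sq)
    exact ⟨x.1, x.2, fun h => hx (Subtype.ext h)⟩
  have hgq : g ^ q = 1 := by
    have h1 : (⟨g, hg⟩ : ↥Sq) ^ Nat.card ↥Sq = 1 := pow_card_eq_one'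
    rw [hSq] at h1
    have h3 := congrArg Subtype.val h1
    simpa only [Subgroup.coe_pow, Subgroup.coe_one] using h3
  have hqodd : Odd q := hq.odd_of_ne_two hq2
  have hginj : ∀ u u' : E, ρ g u = ρ g u' → u = u' := by
    intro u u' h
    have h1 : ρ g⁻¹ (ρ g u) = ρ g⁻¹ (ρ g u') := by rw [h]
    rw [← hmul, ← hmul, inv_mul_cancel, hone, hone] at h1
    exact h1
  -- a vector fixed by `g` and `T`
  obtain ⟨w₁, hw₁W, hw₁0, hw₁g⟩ := hfrob g hg hg1 W hWA (hWq g hg) hW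
  obtain ⟨v, hvW, hv0, hvT⟩ := h2fix T hT2 (W ⊓ LinearMap.eqLocus (ρ g) LinearMap.id)
    (by
      intro t ht w hw
      rw [Submodule.mem_inf, LinearMap.mem_eqLocus] at hw ⊢
      refine ⟨hWt t ht.1 ht.2 w hw.1, ?_⟩
      rw [hWc g hg t ht.1 ht.2 w hw.1, hw.2]
      rfl)
    (by
      intro h
      apply hw₁0
      have h1 : w₁ ∈ W ⊓ LinearMap.eqLocus (ρ g) LinearMap.id := by
        rw [Submodule.mem_inf, LinearMap.mem_eqLocus]
        exact ⟨hw₁W, hw₁g⟩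
      rw [h] at h1
      exact (Submodule.mem_bot _).mp h1)
  rw [Submodule.mem_inf, LinearMap.mem_eqLocus] at hvW
  have hvg : ρ g v = v := hvW.2
  -- `g` acts nontrivially on `W`
  have hnontriv : ∃ w₂ ∈ W, ρ g w₂ ≠ w₂ := by
    by_contra hcon
    push Not at hcon
    apply hW
    rw [Submodule.eq_bot_iff]
    intro w hw
    apply hfixA
    intro b hb
    have hinj : Function.Injective (fun a : ↥A =>
        (⟨g * a.1 * g⁻¹ * a.1⁻¹, A.mul_mem (hAN.conj_mem a.1 a.2 g) (A.inv_mem a.2)⟩ : ↥A)) := by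
      intro a a' h
      have h1 : g * a.1 * g⁻¹ * a.1⁻¹ = g * a'.1 * g⁻¹ * a'.1⁻¹ := congrArg Subtype.val h
      have h2 : g * (a'.1⁻¹ * a.1) = (a'.1⁻¹ * a.1) * g := by
        have h3 : a'.1⁻¹ * a.1 = (g * a'.1 * g⁻¹)⁻¹ * (g * a.1 * g⁻¹) := by
          have h4 : g * a.1 * g⁻¹ = g * a'.1 * g⁻¹ * a'.1⁻¹ * a.1 := by
            rw [← h1]; group
          rw [h4]; group
        have h5 : (g * a'.1 * g⁻¹)⁻¹ * (g * a.1 * g⁻¹) = g * (a'.1⁻¹ * a.1) * g⁻¹ := by group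
        rw [h5] at h3
        calc g * (a'.1⁻¹ * a.1) = g * (a'.1⁻¹ * a.1) * g⁻¹ * g := by group
          _ = (a'.1⁻¹ * a.1) * g := by rw [← h3]
      have h6 := hcent g hg hg1 (a'.1⁻¹ * a.1) (A.mul_mem (A.inv_mem a'.2) a.2) h2
      apply Subtype.ext
      have h7 : a.1 = a'.1 * (a'.1⁻¹ * a.1) := by group
      rw [h7, h6, mul_one]
    obtain ⟨a, ha⟩ := (Finite.injective_iff_surjective.mp hinj) ⟨b, hb⟩
    have h1 : g * a.1 * g⁻¹ * a.1⁻¹ = b := congrArg Subtype.val ha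
    have hginv : ∀ w' ∈ W, ρ g⁻¹ w' = w' := by
      intro w' hw'
      have h2 : ρ g⁻¹ (ρ g w') = w' := by rw [← hmul, inv_mul_cancel, hone]
      rw [hcon w' hw'] at h2
      exact h2
    have h3 : ρ a.1 (ρ a.1⁻¹ w) = w := by rw [← hmul, mul_inv_cancel, hone]
    rw [← h1, hmul, hmul, hmul, hginv _ (hWA _ (A.inv_mem a.2) w hw), h3, hcon w hw]
  obtain ⟨w₂, hw₂W, hw₂g⟩ := hnontriv
  -- the norm
  obtain ⟨N, hN⟩ : ∃ N : Module.End (ZMod 2) E, N = ∑ i ∈ Finset.range q, ρ (g ^ i) := ⟨_, rfl⟩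
  have hNapp : ∀ w : E, N w = ∑ i ∈ Finset.range q, ρ (g ^ i) w := by
    intro w
    rw [hN, LinearMap.sum_apply]
  have hNg : ∀ w : E, N (ρ g w) = N w := by
    intro w
    rw [hNapp, hNapp]
    have h1 : ∑ i ∈ Finset.range q, ρ (g ^ i) (ρ g w) =
        ∑ i ∈ Finset.range q, ρ (g ^ (i + 1)) w :=
      Finset.sum_congr rfl (fun i _ => by rw [pow_succ, hmul])
    rw [h1]
    have h2 := Finset.sum_range_succ (fun i => ρ (g ^ i) w) q
    have h3 := Finset.sum_range_succ' (fun i => ρ (g ^ i) w) q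
    rw [h2] at h3
    simp only [hgq, pow_zero] at h3
    exact (add_right_cancel h3).symm
  obtain ⟨u, huW, hu0, huT⟩ := h2fix T hT2 (W ⊓ LinearMap.ker N)
    (by
      intro t ht w hw
      rw [Submodule.mem_inf, LinearMap.mem_ker] at hw ⊢
      refine ⟨hWt t ht.1 ht.2 w hw.1, ?_⟩
      rw [hNapp]
      have h1 : ∑ i ∈ Finset.range q, ρ (g ^ i) (ρ t w) =
          ∑ i ∈ Finset.range q, ρ t (ρ (g ^ i) w) :=
        Finset.sum_congr rfl (fun i _ => hWc (g ^ i) (pow_mem hg i) t ht.1 ht.2 w hw.1)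
      rw [h1, ← map_sum, ← hNapp, hw.2, map_zero])
    (by
      intro h
      have h1 : ρ g w₂ - w₂ ∈ W ⊓ LinearMap.ker N := by
        rw [Submodule.mem_inf, LinearMap.mem_ker]
        refine ⟨W.sub_mem (hWq g hg w₂ hw₂W) hw₂W, ?_⟩
        rw [map_sub, hNg, sub_self]
      rw [h] at h1
      exact hw₂g (sub_eq_zero.mp ((Submodule.mem_bot _).mp h1)))
  rw [Submodule.mem_inf, LinearMap.mem_ker] at huW
  have hgu : ρ g u ≠ u := by
    intro h
    apply hu0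
    have h1 : ∀ i : ℕ, ρ (g ^ i) u = u := by
      intro i
      induction i with
      | zero => rw [pow_zero, hone]
      | succ n ih => rw [pow_succ, hmul, h, ih]
    have h2 : N u = q • u := by
      rw [hNapp, Finset.sum_congr rfl (fun i _ => h1 i), Finset.sum_const, Finset.card_range]
    obtain ⟨m, hm⟩ := hqodd
    have h3 : q • u = u := by
      rw [hm, add_smul, one_smul, mul_smul, two_smul, h2u, zero_add]
    rw [← h3, ← h2, huW.2]
  have hguW : ρ g u ∈ W := hWq g hg u huW.1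
  have hguT : ∀ t ∈ T, ρ t (ρ g u) = ρ g u := by
    intro t ht
    rw [← hWc g hg t ht.1 ht.2 u huW.1, huT t ht]
  -- the eight vectors
  have hmemW : ∀ x : ZMod 2 × ZMod 2 × ZMod 2,
      x.1 • v + (x.2.1 • u + x.2.2 • ρ g u) ∈ W := fun x =>
    W.add_mem (W.smul_mem _ hvW.1) (W.add_mem (W.smul_mem _ huW.1) (W.smul_mem _ hguW))
  have hker : ∀ x : ZMod 2 × ZMod 2 × ZMod 2,
      x.1 • v + (x.2.1 • u + x.2.2 • ρ g u) = 0 → x = 0 := by
    have h01 : ∀ a : ZMod 2, a = 0 ∨ a = 1 := by decide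
    rintro ⟨a, b, c⟩ h
    rcases h01 a with rfl | rfl <;> rcases h01 b with rfl | rfl <;> rcases h01 c with rfl | rfl <;>
      simp only [zero_smul, one_smul, zero_add, add_zero] at h
    · rfl
    · exact absurd (hginj _ _ (by rw [h, map_zero])) hu0
    · exact absurd h hu0
    · exact absurd (hchar _ _ h).symm hgu
    · exact absurd h hv0
    · -- v = g u
      have h1 : v = ρ g u := hchar _ _ h
      have h2 : ρ g (ρ g u) = ρ g u := by rw [← h1, hvg]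
      exact absurd (hginj _ _ h2) hgu
    · -- v = u
      have h1 : v = u := hchar _ _ h
      rw [h1] at hvg
      exact absurd hvg hgu
    · -- v = u + g u
      have h1 : v = u + ρ g u := hchar _ _ h
      have h2 : ρ g (ρ g u) = u := by
        have h3 : ρ g u + ρ g (ρ g u) = u + ρ g u := by
          rw [← map_add, ← h1, hvg]
        have h4 : ρ g (ρ g u) + ρ g u = u + ρ g u := by rw [add_comm]; exact h3
        exact add_right_cancel h4
      have h5 : ∀ m : ℕ, ρ (g ^ (2 * m)) u = u := by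
        intro m
        induction m with
        | zero => rw [mul_zero, pow_zero, hone]
        | succ n ih =>
          have h6 : g ^ (2 * (n + 1)) = g ^ (2 * n) * (g * g) := by
            rw [mul_add, pow_add, mul_one, pow_two]
          rw [h6, hmul, hmul, h2, ih]
      obtain ⟨m, hm⟩ := hqodd
      have h7 : ρ (g ^ q) u = ρ g u := by
        rw [hm, pow_succ', hmul, h5]
      rw [hgq, hone] at h7
      exact absurd h7.symm hgu
  have hinj : Function.Injective (fun x : ZMod 2 × ZMod 2 × ZMod 2 =>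
      (⟨x.1 • v + (x.2.1 • u + x.2.2 • ρ g u), by
        refine ⟨hWK _ (hmemW x), fun t ht htK => ?_⟩
        have htT : t ∈ T := ⟨ht, htK⟩
        rw [map_add, map_add, map_smul, map_smul, map_smul, hvT t htT, huT t htT, hguT t htT]⟩ :
        {w : E // (∀ k ∈ K, ρ k w = w) ∧
          ∀ t ∈ S₂, (∀ k ∈ K, t * k * t⁻¹ ∈ K) → ρ t w = w})) := by
    intro x y hxy
    have h1 : x.1 • v + (x.2.1 • u + x.2.2 • ρ g u) = y.1 • v + (y.2.1 • u + y.2.2 • ρ g u) :=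
      congrArg Subtype.val hxy
    have h2 : (x - y).1 • v + ((x - y).2.1 • u + (x - y).2.2 • ρ g u) = 0 := by
      simp only [Prod.fst_sub, Prod.snd_sub, sub_smul]
      have h3 : x.1 • v - y.1 • v + (x.2.1 • u - y.2.1 • u + (x.2.2 • ρ g u - y.2.2 • ρ g u)) =
          (x.1 • v + (x.2.1 • u + x.2.2 • ρ g u)) - (y.1 • v + (y.2.1 • u + y.2.2 • ρ g u)) := by
        abel
      rw [h3, h1, sub_self]
    exact sub_eq_zero.mp (hker _ h2)
  have hcard : Nat.card (ZMod 2 × ZMod 2 × ZMod 2) = 8 := by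
    rw [Nat.card_prod, Nat.card_prod, Nat.card_zmod]
  rw [← hcard]
  exact Nat.card_le_card_of_injective _ hinj

end Cfsg.Agent.Helper63.N14
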