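-- helper63: piece m1b of CALL S4415 (the frame of weight lines).
import Cfsg.Prelude.Def_Transfer
import Cfsg.Prelude.Def_Solvable
import Cfsg.Agent.Helper63.N15Defs

set_option autoImplicit false

namespace Cfsg.Agent.Helper63.N15

variable {G : Type*} [Group G] [Finite G] {V : Type*} [AddCommGroup V] [Module (ZMod 3) V]
  [Finite V] {ρ : Representation (ZMod 3) G V} {R : Subgroup G} {b q₁ q₂ q₃ : G} {v₁ v₂ v₃ : V}

/-- The sum of the `W k`, `k ≠ j`. -/
def m1bT {m : ℕ} (W : Fin m → Submodule (ZMod 3) V) (j : Fin m) : Submodule (ZMod 3) V where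
  carrier := {x | ∃ f : Fin m → V, (∀ k, f k ∈ W k) ∧ f j = 0 ∧ x = ∑ k, f k}
  add_mem' := by
    rintro x y ⟨f, hf, hfj, rfl⟩ ⟨g, hg, hgj, rfl⟩
    exact ⟨f + g, fun k => (W k).add_mem (hf k) (hg k), by simp [hfj, hgj],
      by simp [Finset.sum_add_distrib]⟩
  zero_mem' := ⟨0, fun k => (W k).zero_mem, rfl, by simp⟩
  smul_mem' := by
    rintro c x ⟨f, hf, hfj, rfl⟩
    exact ⟨c • f, fun k => (W k).smul_mem c (hf k), by simp [hfj], by simp [Finset.smul_sum]⟩

theorem m1b_WT {m : ℕ} (W : Fin m → Submodule (ZMod 3) V) (j k : Fin m) (hkj : k ≠ j) :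
    W k ≤ m1bT W j := by
  classical
  intro u hu
  refine ⟨Pi.single k u, ?_, ?_, ?_⟩
  · intro l
    by_cases hl : l = k
    · subst hl
      simpa using hu
    · rw [Pi.single_eq_of_ne hl]
      exact (W l).zero_mem
  · rw [Pi.single_eq_of_ne (Ne.symm hkj)]
  · rw [Finset.sum_eq_single k]
    · simp
    · intro l _ hl
      rw [Pi.single_eq_of_ne hl]
    · intro h
      exact absurd (Finset.mem_univ k) h

theorem m1b_proj {m : ℕ} (W : Fin m → Submodule (ZMod 3) V)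
    (h6 : ∀ f : Fin m → V, (∀ i, f i ∈ W i) → ∑ i, f i = 0 → ∀ i, f i = 0)
    (j : Fin m) (u : V) (hu : u ∈ W j) (x : V) (hx : x ∈ m1bT W j) (h0 : u + x = 0) : u = 0 := by
  classical
  obtain ⟨f, hf, hfj, rfl⟩ := hx
  have h1 := h6 (f + Pi.single j u) (by
    intro k
    refine (W k).add_mem (hf k) ?_
    by_cases hk : k = j
    · subst hk
      simpa using hu
    · rw [Pi.single_eq_of_ne hk]
      exact (W k).zero_mem) (by
    have h2 : ∑ k, (Pi.single j u : Fin m → V) k = u := by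
      rw [Finset.sum_eq_single j]
      · simp
      · intro l _ hl
        rw [Pi.single_eq_of_ne hl]
      · intro h
        exact absurd (Finset.mem_univ j) h
    simp only [Pi.add_apply, Finset.sum_add_distrib]
    rw [h2, add_comm]
    exact h0) j
  simpa [hfj] using h1

theorem m1b_zmod (k : ZMod 3) (hk : k ≠ 0) : k = 1 ∨ k = -1 := by
  revert k
  decide

theorem m1b_cube (k : ZMod 3) (hk : k * k * k = 1) : k = 1 := by
  revert k
  decide

/-- M1b. The weight spaces are lines forming a frame on which `G` is monomial and `b` a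
`3`-cycle. -/
theorem m1b (c : Cfg ρ R b q₁ q₂ q₃ v₁ v₂ v₃)
    (hn : ∀ v : V, ∃ k : ZMod 3, v + ρ b v + ρ b (ρ b v) = k • (v₁ + v₂ + v₃))
    (A : Subgroup G) (hAn : A.Normal) (hAb : ¬ ∀ x ∈ A, x * b = b * x)
    (m : ℕ) (W : Fin m → Submodule (ZMod 3) V) (χ : Fin m → G → ZMod 3)
    (h : IsWeightDec ρ A m W χ) :
    ∃ (n : ℕ) (e : Module.Basis (Fin n) (ZMod 3) V), MonoN ρ b n e := by
  classical
  obtain ⟨h1, h2, h3, h4, h5, h6, h7⟩ := h
  have hne : ∀ i, ∃ u ∈ W i, u ≠ 0 := fun i => (Submodule.ne_bot_iff _).mp (h1 i)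
  have hdisj : ∀ i j, i ≠ j → ∀ u, u ∈ W i → u ∈ W j → u = 0 := by
    intro i j hij u hi hj
    exact m1b_proj W h6 i u hi (-u) ((m1bT W i).neg_mem (m1b_WT W i j (Ne.symm hij) hj))
      (add_neg_cancel u)
  obtain ⟨π, hπ⟩ : ∃ π : G → Fin m → Fin m, ∀ g i, ∀ v ∈ W i, ρ g v ∈ W (π g i) :=
    ⟨fun g i => Classical.choose (h7 g i), fun g i => Classical.choose_spec (h7 g i)⟩
  have hmul : ∀ (g h : G) (v : V), ρ (g * h) v = ρ g (ρ h v) := by
    intro g h v
    rw [map_mul]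
    rfl
  have hone : ∀ v : V, ρ (1 : G) v = v := by
    intro v
    rw [map_one]
    rfl
  have hρinj : ∀ (g : G) (v : V), ρ g v = 0 → v = 0 := by
    intro g v hv
    have h0 : ρ g⁻¹ (ρ g v) = v := by
      rw [← hmul, inv_mul_cancel, hone]
    rw [hv, map_zero] at h0
    exact h0.symm
  have hπu : ∀ g i j, (∀ v ∈ W i, ρ g v ∈ W j) → j = π g i := by
    intro g i j hj
    obtain ⟨u, hu, hu0⟩ := hne i
    by_contra hne'
    exact hu0 (hρinj g u (hdisj j (π g i) hne' _ (hj u hu) (hπ g i u hu)))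
  have hπ1 : ∀ i, π 1 i = i := fun i =>
    (hπu 1 i i (fun v hv => by rw [hone]; exact hv)).symm
  have hπmul : ∀ g h i, π (g * h) i = π g (π h i) := by
    intro g h i
    refine (hπu (g * h) i _ (fun v hv => ?_)).symm
    rw [hmul]
    exact hπ g _ _ (hπ h i v hv)
  have hπinv : ∀ g i, π g⁻¹ (π g i) = i := by
    intro g i
    rw [← hπmul, inv_mul_cancel, hπ1]
  have hπinj : ∀ g i j, π g i = π g j → i = j := by
    intro g i j hij
    have h0 := congrArg (π g⁻¹) hij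
    rwa [hπinv, hπinv] at h0
  have hb3 : b * (b * b) = 1 := by
    have h0 := c.b3
    rw [pow_succ, pow_two] at h0
    rw [← mul_assoc]
    exact h0
  have hπb3 : ∀ i, π b (π b (π b i)) = i := by
    intro i
    have h0 : π (b * (b * b)) i = i := by rw [hb3, hπ1]
    rw [hπmul, hπmul] at h0
    exact h0
  have hρb3 : ∀ v : V, ρ b (ρ b (ρ b v)) = v := by
    intro v
    have h0 : ρ (b * (b * b)) v = v := by rw [hb3, hone]
    rw [hmul, hmul] at h0
    exact h0
  -- transitivity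
  have htrans : ∀ i j, ∃ g, π g i = j := by
    intro i j
    by_contra hcon
    push Not at hcon
    obtain ⟨N, hNdef⟩ : ∃ N : Submodule (ZMod 3) V,
        N = Submodule.span (ZMod 3) {x | ∃ g : G, ∃ v ∈ W i, x = ρ g v} := ⟨_, rfl⟩
    have hNinv : ∀ g : G, ∀ v ∈ N, ρ g v ∈ N := by
      intro g v hv
      have hle : N ≤ N.comap (ρ g) := by
        rw [hNdef]
        apply Submodule.span_le.mpr
        rintro x ⟨g', v', hv', rfl⟩
        show ρ g (ρ g' v') ∈ Submodule.span (ZMod 3) {x | ∃ g : G, ∃ v ∈ W i, x = ρ g v}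
        apply Submodule.subset_span
        exact ⟨g * g', v', hv', (hmul g g' v').symm⟩
      exact hle hv
    obtain ⟨u, hu, hu0⟩ := hne i
    have huN : u ∈ N := by
      rw [hNdef]
      exact Submodule.subset_span ⟨1, u, hu, (hone u).symm⟩
    have hNtop : N = ⊤ := by
      rcases c.irr N hNinv with h | h
      · exfalso
        rw [h] at huN
        exact hu0 ((Submodule.mem_bot _).mp huN)
      · exact h
    have hNT : N ≤ m1bT W j := by
      rw [hNdef]
      apply Submodule.span_le.mpr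
      rintro x ⟨g, v, hv, rfl⟩
      exact m1b_WT W j (π g i) (hcon g) (hπ g i v hv)
    obtain ⟨w, hw, hw0⟩ := hne j
    have hwT : w ∈ m1bT W j := hNT (by rw [hNtop]; exact Submodule.mem_top)
    exact hw0 (m1b_proj W h6 j w hw (-w) ((m1bT W j).neg_mem hwT) (add_neg_cancel w))
  -- `b` moves an index
  have hmove : ∃ i, π b i ≠ i := by
    by_contra hcon
    push Not at hcon
    apply hAb
    intro x hx
    have hW : ∀ i, ∀ w ∈ W i, ρ x (ρ b w) = ρ b (ρ x w) := by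
      intro i w hw
      have hbw : ρ b w ∈ W i := by
        have h0 := hπ b i w hw
        rwa [hcon i] at h0
      rw [(h2 i (ρ b w)).mp hbw x hx, (h2 i w).mp hw x hx, map_smul]
    have hall : ∀ v, ρ x (ρ b v) = ρ b (ρ x v) := by
      intro v
      obtain ⟨f, hf, rfl⟩ := h5 v
      simp only [map_sum]
      exact Finset.sum_congr rfl (fun i _ => hW i (f i) (hf i))
    have h1' : (x * b) * (b * x)⁻¹ = 1 := by
      apply c.faith
      intro v
      have e2 : ρ b (ρ x (ρ (b * x)⁻¹ v)) = v := by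
        rw [← hmul, ← hmul, mul_inv_cancel, hone]
      rw [hmul, hmul, hall, e2]
    exact mul_inv_eq_one.mp h1'
  obtain ⟨i₀, hi₀⟩ := hmove
  obtain ⟨i₁, hi₁⟩ : ∃ i₁, i₁ = π b i₀ := ⟨_, rfl⟩
  obtain ⟨i₂, hi₂⟩ : ∃ i₂, i₂ = π b i₁ := ⟨_, rfl⟩
  have h01 : i₀ ≠ i₁ := fun h => hi₀ (by rw [← hi₁]; exact h.symm)
  have h12 : i₁ ≠ i₂ := by
    intro h
    rw [hi₂, hi₁] at h
    exact h01 (by rw [hi₁]; exact hπinj b _ _ h)
  have h02 : i₀ ≠ i₂ := by
    intro h
    apply hi₀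
    have h0 := hπb3 i₀
    rw [← hi₁, ← hi₂, ← h] at h0
    exact h0
  have hb1 : ∀ v ∈ W i₀, ρ b v ∈ W i₁ := fun v hv => by
    rw [hi₁]
    exact hπ b i₀ v hv
  have hb2 : ∀ v ∈ W i₀, ρ b (ρ b v) ∈ W i₂ := fun v hv => by
    rw [hi₂]
    exact hπ b i₁ _ (hb1 v hv)
  have hL1 : ∀ u ∈ W i₀, u + ρ b u + ρ b (ρ b u) = 0 → u = 0 := by
    intro u hu h0
    refine m1b_proj W h6 i₀ u hu (ρ b u + ρ b (ρ b u)) ?_ (by rw [← add_assoc]; exact h0)
    exact (m1bT W i₀).add_mem (m1b_WT W i₀ i₁ (Ne.symm h01) (hb1 u hu))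
      (m1b_WT W i₀ i₂ (Ne.symm h02) (hb2 u hu))
  obtain ⟨e₀, he₀, he₀0⟩ := hne i₀
  obtain ⟨k₀, hk₀⟩ := hn e₀
  have hk₀0 : k₀ ≠ 0 := by
    intro h
    rw [h, zero_smul] at hk₀
    exact he₀0 (hL1 e₀ he₀ hk₀)
  have hline0 : ∀ v ∈ W i₀, ∃ k : ZMod 3, v = k • e₀ := by
    intro v hv
    obtain ⟨k, hk⟩ := hn v
    have hz : k₀ • v - k • e₀ = 0 := by
      apply hL1 _ ((W i₀).sub_mem ((W i₀).smul_mem _ hv) ((W i₀).smul_mem _ he₀))
      have h0 : (k₀ • v - k • e₀) + ρ b (k₀ • v - k • e₀) + ρ b (ρ b (k₀ • v - k • e₀))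
          = k₀ • (v + ρ b v + ρ b (ρ b v)) - k • (e₀ + ρ b e₀ + ρ b (ρ b e₀)) := by
        simp only [map_sub, map_smul, smul_add]
        abel
      rw [h0, hk, hk₀, smul_smul, smul_smul, mul_comm, sub_self]
    refine ⟨k₀⁻¹ * k, ?_⟩
    have h0 : k₀ • v = k • e₀ := sub_eq_zero.mp hz
    calc v = k₀⁻¹ • (k₀ • v) := by rw [smul_smul, inv_mul_cancel₀ hk₀0, one_smul]
      _ = (k₀⁻¹ * k) • e₀ := by rw [h0, smul_smul]
  have hline : ∀ i, ∃ u ∈ W i, u ≠ 0 ∧ ∀ v ∈ W i, ∃ k : ZMod 3, v = k • u := by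
    intro i
    obtain ⟨g, hg⟩ := htrans i₀ i
    refine ⟨ρ g e₀, by rw [← hg]; exact hπ g i₀ e₀ he₀, fun h => he₀0 (hρinj g e₀ h), ?_⟩
    intro v hv
    have hv' : ρ g⁻¹ v ∈ W i₀ := by
      have h0 := hπ g⁻¹ i v hv
      rwa [← hg, hπinv] at h0
    obtain ⟨k, hk⟩ := hline0 _ hv'
    refine ⟨k, ?_⟩
    have h0 : ρ g (ρ g⁻¹ v) = v := by
      rw [← hmul, mul_inv_cancel, hone]
    rw [← h0, hk, map_smul]
  have hgen : ∀ i, ∀ u ∈ W i, u ≠ 0 → ∀ v ∈ W i, ∃ k : ZMod 3, v = k • u := by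
    intro i u hu hu0 v hv
    obtain ⟨u', hu', hu'0, hu'g⟩ := hline i
    obtain ⟨k, hk⟩ := hu'g u hu
    obtain ⟨k', hk'⟩ := hu'g v hv
    have hk0 : k ≠ 0 := by
      rintro rfl
      rw [zero_smul] at hk
      exact hu0 hk
    refine ⟨k' * k⁻¹, ?_⟩
    rw [hk', hk, smul_smul, mul_assoc, inv_mul_cancel₀ hk0, mul_one]
  have hfix : ∀ j, j ≠ i₀ → j ≠ i₁ → j ≠ i₂ → π b j = j := by
    intro j hj0 hj1 hj2
    by_contra hjm
    obtain ⟨u, hu, hu0⟩ := hne j
    obtain ⟨k', hk'⟩ := hn u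
    have hj2' : π b (π b j) ≠ j := by
      intro h
      have h3 := hπb3 j
      rw [h] at h3
      exact hjm h3
    have key : k₀ • u = 0 := by
      refine m1b_proj W h6 j (k₀ • u) ((W j).smul_mem _ hu)
        (k₀ • ρ b u + k₀ • ρ b (ρ b u) - k' • e₀ - k' • ρ b e₀ - k' • ρ b (ρ b e₀)) ?_ ?_
      · refine (m1bT W j).sub_mem ((m1bT W j).sub_mem ((m1bT W j).sub_mem
          ((m1bT W j).add_mem ?_ ?_) ?_) ?_) ?_
        · exact (m1bT W j).smul_mem _ (m1b_WT W j (π b j) hjm (hπ b j u hu))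
        · exact (m1bT W j).smul_mem _
            (m1b_WT W j (π b (π b j)) hj2' (hπ b _ _ (hπ b j u hu)))
        · exact (m1bT W j).smul_mem _ (m1b_WT W j i₀ (Ne.symm hj0) he₀)
        · exact (m1bT W j).smul_mem _ (m1b_WT W j i₁ (Ne.symm hj1) (hb1 e₀ he₀))
        · exact (m1bT W j).smul_mem _ (m1b_WT W j i₂ (Ne.symm hj2) (hb2 e₀ he₀))
      · have h0 : k₀ • u + (k₀ • ρ b u + k₀ • ρ b (ρ b u) - k' • e₀ - k' • ρ b e₀
            - k' • ρ b (ρ b e₀))
            = k₀ • (u + ρ b u + ρ b (ρ b u)) - k' • (e₀ + ρ b e₀ + ρ b (ρ b e₀)) := by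
          simp only [smul_add]
          abel
        rw [h0, hk', hk₀, smul_smul, smul_smul, mul_comm, sub_self]
    rcases smul_eq_zero.mp key with h | h
    · exact hk₀0 h
    · exact hu0 h
  have hfixv : ∀ j, π b j = j → ∀ u ∈ W j, ρ b u = u := by
    intro j hj u hu
    by_cases hu0 : u = 0
    · rw [hu0, map_zero]
    obtain ⟨s, hs⟩ := hgen j u hu hu0 (ρ b u) (by
      have h0 := hπ b j u hu
      rwa [hj] at h0)
    have e2 : ρ b (ρ b u) = (s * s) • u := by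
      rw [hs, map_smul, hs, smul_smul]
    have e3 : ρ b (ρ b (ρ b u)) = (s * s * s) • u := by
      rw [e2, map_smul, hs, smul_smul]
    rw [hρb3] at e3
    have h0 : (s * s * s - 1) • u = 0 := by
      rw [sub_smul, one_smul, ← e3, sub_self]
    rcases smul_eq_zero.mp h0 with h | h
    · have hs1 : s = 1 := m1b_cube s (sub_eq_zero.mp h)
      rw [hs, hs1, one_smul]
    · exact absurd h hu0
  -- the basis
  choose u₀ hu₀W hu₀0 hu₀g using hline
  obtain ⟨e, hedef⟩ : ∃ e : Fin m → V, e = fun i => if i = i₀ then e₀ else if i = i₁ then ρ b e₀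
      else if i = i₂ then ρ b (ρ b e₀) else u₀ i := ⟨_, rfl⟩
  have hei0 : e i₀ = e₀ := by
    rw [hedef]
    simp
  have hei1 : e i₁ = ρ b e₀ := by
    rw [hedef]
    simp [Ne.symm h01]
  have hei2 : e i₂ = ρ b (ρ b e₀) := by
    rw [hedef]
    simp [Ne.symm h02, Ne.symm h12]
  have heother : ∀ i, i ≠ i₀ → i ≠ i₁ → i ≠ i₂ → e i = u₀ i := by
    intro i h0 h1 h2
    rw [hedef]
    simp [h0, h1, h2]
  have heW : ∀ i, e i ∈ W i := by
    intro i
    by_cases h0 : i = i₀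
    · rw [h0, hei0]
      exact he₀
    · by_cases h1 : i = i₁
      · rw [h1, hei1]
        exact hb1 e₀ he₀
      · by_cases h2 : i = i₂
        · rw [h2, hei2]
          exact hb2 e₀ he₀
        · rw [heother i h0 h1 h2]
          exact hu₀W i
  have he0 : ∀ i, e i ≠ 0 := by
    intro i
    by_cases h0 : i = i₀
    · rw [h0, hei0]
      exact he₀0
    · by_cases h1 : i = i₁
      · rw [h1, hei1]
        exact fun h => he₀0 (hρinj b e₀ h)
      · by_cases h2 : i = i₂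
        · rw [h2, hei2]
          exact fun h => he₀0 (hρinj b e₀ (hρinj b _ h))
        · rw [heother i h0 h1 h2]
          exact hu₀0 i
  have hli : LinearIndependent (ZMod 3) e := by
    rw [Fintype.linearIndependent_iff]
    intro g hg i
    have h0 := h6 (fun i => g i • e i) (fun i => (W i).smul_mem _ (heW i)) hg i
    rcases smul_eq_zero.mp h0 with h | h
    · exact h
    · exact absurd h (he0 i)
  have hsp : ⊤ ≤ Submodule.span (ZMod 3) (Set.range e) := by
    intro v _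
    obtain ⟨f, hf, rfl⟩ := h5 v
    refine Submodule.sum_mem _ (fun i _ => ?_)
    obtain ⟨k, hk⟩ := hgen i (e i) (heW i) (he0 i) (f i) (hf i)
    rw [hk]
    exact Submodule.smul_mem _ _ (Submodule.subset_span ⟨i, rfl⟩)
  have hB : ∀ i, (Module.Basis.mk hli hsp) i = e i := fun i => by
    rw [Module.Basis.mk_apply]
  have hmono : ∀ g i, ρ g (e i) = e (π g i) ∨ ρ g (e i) = -e (π g i) := by
    intro g i
    have hmem := hπ g i (e i) (heW i)
    obtain ⟨k, hk⟩ := hgen (π g i) (e (π g i)) (heW _) (he0 _) _ hmem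
    have hk0 : k ≠ 0 := by
      rintro rfl
      rw [zero_smul] at hk
      exact he0 i (hρinj g _ hk)
    rcases m1b_zmod k hk0 with rfl | rfl
    · left
      rw [hk, one_smul]
    · right
      rw [hk, neg_smul, one_smul]
  refine ⟨m, Module.Basis.mk hli hsp, ?_, ?_, ?_⟩
  · intro g i
    refine ⟨π g i, ?_⟩
    rw [hB, hB]
    exact hmono g i
  · intro i j
    obtain ⟨g, hg⟩ := htrans i j
    refine ⟨g, ?_⟩
    rw [hB, hB, ← hg]
    exact hmono g i
  · refine ⟨i₀, i₁, i₂, h01, h12, h02, ?_, ?_, ?_, ?_⟩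
    · rw [hB, hB, hei0, hei1]
    · rw [hB, hB, hei1, hei2]
    · rw [hB, hB, hei2, hei0, hρb3]
    · intro i h0 h1 h2
      rw [hB]
      exact hfixv i (hfix i h0 h1 h2) (e i) (heW i)

end Cfsg.Agent.Helper63.N15
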